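import Cfsg.Agent.H776.P4.Asm
import Cfsg.Agent.H245.PU.Ess
import Cfsg.Agent.H659.PU.Over
import Cfsg.Agent.H546.PU.Constr
import Cfsg.Agent.H805.PU.Main
import Cfsg.Agent.H772.P4.Twist2
import Cfsg.Agent.H128.P4.NoOver

/-!
# S5210: the engine pieces
-/

set_option autoImplicit false

namespace Cfsg.Agent.H776.P4

universe u

theorem eng : Eng.{u} where
  ess := H245.PU.stEss
  ovr := H659.PU.stOver
  con := H546.PU.stCon
  same := H546.PU.stSame
  compl := H805.PU.stCompl
  tw := H772.P4.stTwist2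
  noOver := H128.P4.stNoOver

end Cfsg.Agent.H776.P4
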