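import Cfsg.Agent.H776.P4.Asm

/-!
# S5210: the final step (from `PG K` to a Sylow subgroup of `PSU 4`)
-/

set_option autoImplicit false

namespace Cfsg.Agent.H776.P4

open Cfsg Cfsg.FusionSystem Cfsg.Agent.H802
open Cfsg.Agent.H756.PU (HypK Ess Inv Com NormAut TIAut AF)
open Cfsg.Agent.H756

universe u v

/-- every saturated fusion system over `PG K` is realizable -/
def StAll (K : Type v) [Field K] [StarRing K] (p : ℕ) : Prop :=
  ∀ F : FusionSystem (⊤ : Subgroup (PG K)), F.IsSaturated p → F.IsRealizable p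

theorem real_all (H : Pcs.{v}) (hQ : StQ.{v})
    (h2 : ∀ {K : Type v} [Field K] [StarRing K] {p n : ℕ}, HypK K p n → p ^ n = 2 → StAll K p)
    (h3 : ∀ {K : Type v} [Field K] [StarRing K] {p n : ℕ}, HypK K p n → p ^ n = 3 → StAll K p)
    {K : Type v} [Field K] [StarRing K] {p n : ℕ} (hK : HypK K p n) : StAll K p := by
  intro F hF
  have h1 : 1 < p ^ n := Nat.one_lt_pow (by have := hK.hn; omega) hK.pp.one_lt
  rcases Nat.lt_or_ge 3 (p ^ n) with h | h
  · exact real_gt H hQ hK h hF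
  · rcases (by omega : p ^ n = 2 ∨ p ^ n = 3) with h' | h'
    · exact h2 hK h' F hF
    · exact h3 hK h' F hF

/-- the star operation `x ↦ x^(p^n)` -/
@[reducible] noncomputable def starOf (K : Type v) [Field K] [Finite K] (p n : ℕ) [Fact p.Prime] [CharP K p]
    (hK : Nat.card K = (p ^ n) ^ 2) : StarRing K where
  star x := x ^ p ^ n
  star_involutive x := by
    have := Fintype.ofFinite K
    show (x ^ p ^ n) ^ p ^ n = x
    rw [← pow_mul, ← sq, ← hK, Nat.card_eq_fintype_card]
    exact FiniteField.pow_card x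
  star_mul x y := by
    show (x * y) ^ p ^ n = y ^ p ^ n * x ^ p ^ n
    rw [mul_pow, mul_comm]
  star_add x y := add_pow_char_pow x y p n

theorem final_of
    (H : ∀ {K : Type v} [Field K] [StarRing K] {p n : ℕ}, HypK K p n → StAll K p)
    (hTr : PU.StTrans.{u, v}) (hSyl : StSyl.{v})
    {Ω : Type u} [Group Ω] {S : Subgroup Ω} [Finite S] (p : ℕ) [Fact p.Prime] (F : Cfsg.FusionSystem S)
    (hF : F.IsSaturated p) {K : Type v} [Field K] [Fintype K] [CharP K p] (n : ℕ) (hn : 1 ≤ n)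
    (hK : Fintype.card K = (p ^ n) ^ 2) (T : Sylow p (Cfsg.PSU 4 K (p ^ n)))
    (e : ↥S ≃* ↥(T : Subgroup (Cfsg.PSU 4 K (p ^ n)))) : F.IsRealizable p := by
  have hK' : Nat.card K = (p ^ n) ^ 2 := by rw [Nat.card_eq_fintype_card]; exact hK
  let _ : StarRing K := starOf K p n hK'
  have hyp : HypK K p n := ⟨Fact.out, hn, inferInstance, hK', inferInstance, fun x => rfl⟩
  obtain ⟨e'⟩ := hSyl hyp T
  obtain ⟨F', hF', hR⟩ := hTr F (e.trans e') hF
  exact hR (H hyp F' hF')

end Cfsg.Agent.H776.P4
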