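import Cfsg.Agent.H936.P4.Ends
import Cfsg.Agent.H764.U4.Cent

/-!
# S5210, `q = 3`: no element of `McL` inverts `V` and centralizes `S / V`
-/

set_option autoImplicit false
set_option maxRecDepth 20000

namespace Cfsg.Agent.H776.P4

open Cfsg Cfsg.Agent.LThreeCo1.Ev Cfsg.Agent.SporadicStructure.Co0Matrix Cfsg.Agent.CoOneType.CoEval
open Cfsg.Agent.H776.Co Cfsg.Agent.H956.Co1P Cfsg.Agent.SporadicA
open Cfsg.Agent.H264.U4 Cfsg.Agent.H764.U4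
open M6

/-- evaluation of a word for an element of `M6` -/
theorem ev_of {x : M6} {l : List ℕ} (h : eqB M (wd 2 1 1 x) l = true) : ph2 x = ev l := by
  rw [← wd_prod]
  exact ev_eq h

theorem w2 : ph2 (rt 2 1) = ev [1] := ev_of (by decide +kernel)
theorem w3 : ph2 (rt 3 1) = ev [2] := ev_of (by decide +kernel)
theorem w4 : ph2 (rt 4 1) = ev [4] := ev_of (by decide +kernel)
theorem w5 : ph2 ⟨0, 0, 1, 0, 0, 1⟩ = ev [3, 6] := ev_of (by decide +kernel)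
theorem w7 : ph2 ⟨1, 0, 2, 2, 2, 0⟩ = ev [7] := ev_of (by decide +kernel)
theorem w9 : ph2 ⟨0, 1, 1, 2, 1, 0⟩ = ev [9] := ev_of (by decide +kernel)

theorem map_MV : MV.map ph2 = VS := by
  apply le_antisymm
  · rw [Subgroup.map_le_iff_le_comap]
    have h2 : rt 2 1 ∈ VS.comap ph2 := by
      rw [Subgroup.mem_comap, w2]
      exact Subgroup.subset_closure (by simp)
    have h3 : rt 3 1 ∈ VS.comap ph2 := by
      rw [Subgroup.mem_comap, w3]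
      exact Subgroup.subset_closure (by simp)
    have h4 : rt 4 1 ∈ VS.comap ph2 := by
      rw [Subgroup.mem_comap, w4]
      exact Subgroup.subset_closure (by simp)
    have h5' : (⟨0, 0, 1, 0, 0, 1⟩ : M6) ∈ VS.comap ph2 := by
      rw [Subgroup.mem_comap, w5]
      exact Subgroup.subset_closure (by simp)
    have h5 : rt 5 1 ∈ VS.comap ph2 := by
      have h6 : rt 5 1 = (rt 2 1)⁻¹ * (⟨0, 0, 1, 0, 0, 1⟩ : M6) := by decide
      rw [h6]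
      exact Subgroup.mul_mem _ (Subgroup.inv_mem _ h2) h5'
    intro x hx
    obtain ⟨hx0, hx1⟩ := hx
    refine mem_of_rt fun i => ?_
    fin_cases i
    · exact Or.inl hx0
    · exact Or.inl hx1
    · exact Or.inr h2
    · exact Or.inr h3
    · exact Or.inr h4
    · exact Or.inr h5
  · rw [VS, Subgroup.closure_le]
    rintro y (rfl | rfl | rfl | rfl)
    · exact ⟨_, ⟨rfl, rfl⟩, w2⟩
    · exact ⟨_, ⟨rfl, rfl⟩, w3⟩
    · exact ⟨_, ⟨rfl, rfl⟩, w4⟩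
    · exact ⟨_, ⟨rfl, rfl⟩, w5⟩

theorem tor_inv (x : M6) (h0 : x.r0 = 0) (h1 : x.r1 = 0) : M6.tor 1 0 (-1) 1 x = x⁻¹ := by
  ext <;> simp [M6.tor, h0, h1]

theorem tor_tor (x : M6) : M6.tor 1 0 (-1) 1 (M6.tor 1 0 (-1) 1 x) = x := by
  ext <;> simp [M6.tor]

theorem neg_pC : Cfsg.Agent.H936.P4.Neg pC := by
  rintro ⟨⟨g, hg⟩, hV, hS⟩
  have hV' : ∀ x : M6, x.r0 = 0 → x.r1 = 0 → g * ph2 x * g⁻¹ = ph2 x⁻¹ := fun x h0 h1 =>
    congrArg Subtype.val (hV x h0 h1)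
  have hS' : ∀ x : M6, ∃ y : M6, y.r0 = x.r0 ∧ y.r1 = x.r1 ∧ g * ph2 x * g⁻¹ = ph2 y := by
    intro x
    obtain ⟨y, h0, h1, h2⟩ := hS x
    exact ⟨y, h0, h1, congrArg Subtype.val h2⟩
  choose α h0 h1 h2 using hS'
  have hαV : ∀ x ∈ MV, α x = M6.tor 1 0 (-1) 1 x := by
    rintro x ⟨hx0, hx1⟩
    rw [tor_inv x hx0 hx1]
    apply ph_injective 2 1 1
    rw [← h2, hV' x hx0 hx1]
  have hx : ∀ x, ∃ w ∈ MV, α x = M6.tor 1 0 (-1) 1 (x * w) := by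
    intro x
    refine ⟨x⁻¹ * M6.tor 1 0 (-1) 1 (α x), ⟨?_, ?_⟩, ?_⟩
    · show (x⁻¹ * M6.tor 1 0 (-1) 1 (α x)).r0 = 0
      simp [M6.tor, h0]
    · show (x⁻¹ * M6.tor 1 0 (-1) 1 (α x)).r1 = 0
      simp [M6.tor, h1]
    · rw [mul_inv_cancel_left, tor_tor]
  have hc := cube_of_real ph2 map_MV ⟨_, w7⟩ ⟨_, w9⟩ (α := α) (β := M6.tor 1 0 (-1) 1) (g := g) (h := k3)
    (fun x => (h2 x).symm) q3 hαV hx
  obtain ⟨c, hcd⟩ : ∃ c : Co0, c = k3⁻¹ * g := ⟨_, rfl⟩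
  rw [← hcd] at hc
  have c0 : c.1 f0 = f10 := by rw [hcd, mul_ap, (mem_Fx.1 hg).1, inv_ap k3_f10]
  have c1 : c.1 f10 = f0 := by rw [hcd, mul_ap, (mem_Fx.1 hg).2, inv_ap k3_f0]
  have c3 : (c ^ 3).1 f0 = f10 := by
    rw [pow_succ, pow_two, mul_ap, mul_ap, c0, c1, c0]
  rcases hc with hc | hc
  · rw [hc] at c3
    exact f0_ne_f10 c3
  · rw [hc] at c3
    have h3 : vec f0L (some 1) = - vec f10L (some 1) := by
      have h4 : ((Co0Basic.negCo0.1 f0 : leechLattice) : GolayPt → ℤ) = - (f0 : GolayPt → ℤ) := rfl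
      rw [c3, f0_eq, f10_eq] at h4
      rw [h4, Pi.neg_apply, neg_neg]
    exact absurd h3 (by decide +kernel)

end Cfsg.Agent.H776.P4
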