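import Cfsg.Agent.H776.P4.Stmts2
import Cfsg.Agent.H71.P4.ThreeD

/-!
# S5210: the six configurations are not translates of each other
-/

set_option autoImplicit false

namespace Cfsg.Agent.H776.P4

open Cfsg Cfsg.FusionSystem
open Cfsg.Agent.H756.PU (HypK)
open Cfsg.Agent.H71.P4 (Nine cfgB nine_of)

universe u

theorem shape_dec : ∀ (T T' : Fin 6) (k : ZMod 3 × ZMod 3), (∀ x : ZMod 3 × ZMod 3, cfgB T' x = cfgB T (x - k)) →
    T = T' := by
  decide +kernel

theorem cfg_shape {K : Type u} [Field K] [StarRing K] {p n : ℕ} (hK : HypK K p n) (hq : p ^ n = 3) {ι : K}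
    (hι : ι * ι = -1) (κ : K) (T T' : Fin 6) (he : {x | ∃ y ∈ Cfg ι T, x = κ + y} = Cfg ι T') : T = T' := by
  have h := nine_of hK hq hι
  obtain ⟨k, hk⟩ := h.co_bij.2 κ
  apply shape_dec T T' k
  intro x
  have h1 : h.co x ∈ Cfg ι T' ↔ h.co (x - k) ∈ Cfg ι T := by
    rw [← he]
    constructor
    · rintro ⟨y, hy, hxy⟩
      rw [h.co_sub, hk, hxy]
      simpa using hy
    · intro hx
      refine ⟨_, hx, ?_⟩
      rw [h.co_sub, hk]
      ring
  rw [h.mem_cfg, h.mem_cfg] at h1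
  exact Bool.eq_iff_iff.2 h1

end Cfsg.Agent.H776.P4
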